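import Mathlib

set_option autoImplicit false

namespace Cfsg.Agent.Lib.Helper41

/-- `5 ∣ p (p² - 1)` in terms of `p mod 5` -/
theorem five_dvd_iff (p : ℕ) (hp : 0 < p) :
    5 ∣ p * (p ^ 2 - 1) ↔ (p % 5 = 0 ∨ p % 5 = 1 ∨ p % 5 = 4) := by
  have hp5 : Nat.Prime 5 := by norm_num
  have hp2 : 1 ≤ p ^ 2 := Nat.one_le_pow _ _ hp
  have hsq : p ^ 2 % 5 = (p % 5) ^ 2 % 5 := Nat.pow_mod p 2 5
  have hlt : p % 5 < 5 := Nat.mod_lt _ (by norm_num)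
  obtain ⟨r, hr⟩ : ∃ r, r = p % 5 := ⟨_, rfl⟩
  rw [← hr] at hsq hlt ⊢
  rw [Nat.Prime.dvd_mul hp5]
  constructor
  · rintro (h | h)
    · left
      omega
    · interval_cases r <;> norm_num at hsq <;> omega
  · intro h
    rcases h with rfl | rfl | rfl
    · left
      omega
    · right
      norm_num at hsq
      omega
    · right
      norm_num at hsq
      omega

/-- `p² mod 16` for `p ≡ ±3 mod 8` -/
theorem sq_mod_sixteen_of_three (p : ℕ) (h8 : p % 8 = 3 ∨ p % 8 = 5) : p ^ 2 % 16 = 9 := by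
  rw [Nat.pow_mod]
  have h16 : p % 16 = 3 ∨ p % 16 = 5 ∨ p % 16 = 11 ∨ p % 16 = 13 := by omega
  rcases h16 with h | h | h | h <;> rw [h]

/-- `p² mod 16` for `p ≡ ±1 mod 8` -/
theorem sq_mod_sixteen_of_one (p : ℕ) (h8 : p % 8 = 1 ∨ p % 8 = 7) : p ^ 2 % 16 = 1 := by
  rw [Nat.pow_mod]
  have h16 : p % 16 = 1 ∨ p % 16 = 7 ∨ p % 16 = 9 ∨ p % 16 = 15 := by omega
  rcases h16 with h | h | h | h <;> rw [h]

/-- `p (p² - 1) mod 16` for `p ≡ ±3 mod 8` -/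
theorem mul_sq_sub_one_mod_sixteen (p : ℕ) (h8 : p % 8 = 3 ∨ p % 8 = 5) :
    p * (p ^ 2 - 1) % 16 = 8 := by
  have h1 := sq_mod_sixteen_of_three p h8
  have hp2 : 1 ≤ p ^ 2 := Nat.one_le_pow _ _ (by omega)
  have h2 : (p ^ 2 - 1) % 16 = 8 := by omega
  rw [Nat.mul_mod, h2]
  have h16 : p % 16 = 3 ∨ p % 16 = 5 ∨ p % 16 = 11 ∨ p % 16 = 13 := by omega
  rcases h16 with h | h | h | h <;> rw [h]

end Cfsg.Agent.Lib.Helper41
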