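import Mathlib
import Cfsg.Agent.Lib.Helper41.SL2Sylow2

set_option autoImplicit false

/-!
Groups in which every non-normal subgroup has a maximal normalizer: transport along isomorphisms,
products with abelian groups of coprime order, and central quotients by a unique involution.
-/

namespace Cfsg.Agent.Lib.Helper41

/-- every non-normal subgroup has a maximal normalizer -/
def NormMax (K : Type*) [Group K] : Prop :=
  ∀ H : Subgroup K, ¬ H.Normal → IsCoatom (Subgroup.normalizer (H : Set K))

theorem NormMax.of_equiv {K K' : Type*} [Group K] [Group K'] (e : K ≃* K') (h : NormMax K') :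
    NormMax K := by
  intro H hH
  have hH' : ¬ (H.map e.toMonoidHom).Normal := by
    intro hn
    apply hH
    have h1 := hn.comap e.toMonoidHom
    rwa [Subgroup.comap_map_eq_self_of_injective e.injective] at h1
  have h1 := h _ hH'
  rw [← Subgroup.map_equiv_normalizer_eq H e] at h1
  exact (OrderIso.isCoatom_iff (MulEquiv.mapSubgroup e) _).mp h1

theorem prod_mem_iff_of_coprime {K S : Type*} [Group K] [Group S] [Finite K] [Finite S]
    (hKS : (Nat.card K).Coprime (Nat.card S)) (H : Subgroup (K × S)) (k : K) (s : S) :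
    (k, s) ∈ H ↔ (k, (1 : S)) ∈ H ∧ ((1 : K), s) ∈ H := by
  constructor
  · intro h
    have hcop : IsCoprime (Nat.card K : ℤ) (Nat.card S : ℤ) := Nat.isCoprime_iff_coprime.mpr hKS
    obtain ⟨a, b, hab⟩ := hcop
    have e1 : (k, s) ^ (b * (Nat.card S : ℤ)) = (k, (1 : S)) := by
      have hb : b * (Nat.card S : ℤ) = 1 - a * (Nat.card K : ℤ) := by linarith
      apply Prod.ext
      · rw [Prod.pow_fst, hb, zpow_sub, zpow_one, zpow_mul, zpow_natCast, pow_card_eq_one',
          inv_one, mul_one]
      · rw [Prod.pow_snd, zpow_mul, zpow_natCast, pow_card_eq_one']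
    have e2 : (k, s) ^ (a * (Nat.card K : ℤ)) = ((1 : K), s) := by
      have ha : a * (Nat.card K : ℤ) = 1 - b * (Nat.card S : ℤ) := by linarith
      apply Prod.ext
      · rw [Prod.pow_fst, zpow_mul, zpow_natCast, pow_card_eq_one']
      · rw [Prod.pow_snd, ha, zpow_sub, zpow_one, zpow_mul, zpow_natCast, pow_card_eq_one',
          inv_one, mul_one]
    exact ⟨e1 ▸ H.zpow_mem h _, e2 ▸ H.zpow_mem h _⟩
  · rintro ⟨h1, h2⟩
    have e : (k, s) = (k, 1) * (1, s) := by simp
    rw [e]
    exact H.mul_mem h1 h2

theorem NormMax.prod {K S : Type*} [Group K] [CommGroup S] [Finite K] [Finite S]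
    (hKS : (Nat.card K).Coprime (Nat.card S)) (h : NormMax K) : NormMax (K × S) := by
  intro H hH
  obtain ⟨H₁, hH₁⟩ : ∃ H₁ : Subgroup K, H₁ = H.comap (MonoidHom.inl K S) := ⟨_, rfl⟩
  have hmem : ∀ k : K, k ∈ H₁ ↔ (k, (1 : S)) ∈ H := by
    intro k
    rw [hH₁]
    rfl
  have key : ∀ (g : K) (t : S), (g, t) ∈ Subgroup.normalizer (H : Set (K × S)) ↔
      g ∈ Subgroup.normalizer (H₁ : Set K) := by
    intro g t
    rw [Subgroup.mem_normalizer_iff, Subgroup.mem_normalizer_iff]
    constructor
    · intro hg k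
      rw [hmem, hmem]
      have e : (g, t) * (k, (1 : S)) * (g, t)⁻¹ = (g * k * g⁻¹, 1) := by
        apply Prod.ext
        · simp
        · simp
      rw [← e]
      exact hg (k, 1)
    · rintro hg ⟨k, s⟩
      have e : (g, t) * (k, s) * (g, t)⁻¹ = (g * k * g⁻¹, s) := by
        apply Prod.ext
        · simp
        · show t * s * t⁻¹ = s
          rw [mul_comm t s, mul_inv_cancel_right]
      rw [e, prod_mem_iff_of_coprime hKS H k s, prod_mem_iff_of_coprime hKS H (g * k * g⁻¹) s,
        ← hmem, ← hmem, hg k]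
  have hH₁n : ¬ H₁.Normal := by
    intro hn
    apply hH
    rw [← Subgroup.normalizer_eq_top_iff, eq_top_iff]
    rintro ⟨g, t⟩ -
    rw [key, Subgroup.normalizer_eq_top_iff.mpr hn]
    exact Subgroup.mem_top g
  have hc := h H₁ hH₁n
  constructor
  · rw [Ne, Subgroup.normalizer_eq_top_iff]
    exact hH
  · intro L hL
    obtain ⟨L₁, hL₁⟩ : ∃ L₁ : Subgroup K, L₁ = L.comap (MonoidHom.inl K S) := ⟨_, rfl⟩
    have hmemL : ∀ k : K, k ∈ L₁ ↔ (k, (1 : S)) ∈ L := by
      intro k
      rw [hL₁]
      rfl
    have hS : ∀ t : S, ((1 : K), t) ∈ L :=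
      fun t => hL.le ((key 1 t).mpr (Subgroup.one_mem _))
    have hle : Subgroup.normalizer (H₁ : Set K) ≤ L₁ := by
      intro k hk
      rw [hmemL]
      exact hL.le ((key k 1).mpr hk)
    have hne : Subgroup.normalizer (H₁ : Set K) ≠ L₁ := by
      intro heq
      have hLle : L ≤ Subgroup.normalizer (H : Set (K × S)) := by
        rintro ⟨g, t⟩ hgt
        rw [key, heq, hmemL]
        have e : (g, (1 : S)) = (g, t) * ((1 : K), t)⁻¹ := by
          apply Prod.ext
          · simp
          · simp
        rw [e]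
        exact L.mul_mem hgt (L.inv_mem (hS t))
      exact (not_lt_of_ge hLle) hL
    have htop := hc.2 L₁ (lt_of_le_of_ne hle hne)
    rw [eq_top_iff]
    rintro ⟨k, s⟩ -
    have h1 : (k, (1 : S)) ∈ L := (hmemL k).mp (htop ▸ Subgroup.mem_top k)
    have e : (k, s) = (k, 1) * (1, s) := by simp
    rw [e]
    exact L.mul_mem h1 (hS s)

/-- lifting along a quotient by a central subgroup generated by the unique involution -/
theorem NormMax.of_central_quotient {K Q : Type*} [Group K] [Group Q] [Finite K] (π : K →* Q)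
    (hπ : Function.Surjective π) (z : K) (hz : ∀ x : K, x * x = 1 → x = 1 ∨ x = z)
    (hker : ∀ x : K, π x = 1 → x = 1 ∨ x = z) (hzc : ∀ x : K, z * x = x * z) (hzz : z * z = 1)
    (h : NormMax Q) : NormMax K := by
  classical
  haveI : Finite Q := Finite.of_surjective π hπ
  haveI : Fact (Nat.Prime 2) := ⟨Nat.prime_two⟩
  intro H hH
  have claim2 : ∀ g : K, π g ∈ Subgroup.normalizer ((H.map π : Subgroup Q) : Set Q) →
      g ∈ Subgroup.normalizer (H : Set K) := by
    intro g hg
    apply Subgroup.mem_normalizer_fintype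
    intro n hn
    have hn' : n ∈ H := hn
    show g * n * g⁻¹ ∈ H
    have h1 : π (g * n * g⁻¹) ∈ H.map π := by
      rw [map_mul, map_mul, map_inv]
      exact (Subgroup.mem_normalizer_iff.mp hg (π n)).mp (Subgroup.mem_map_of_mem π hn')
    obtain ⟨h', hh', he⟩ := Subgroup.mem_map.mp h1
    have h2 : π (h'⁻¹ * (g * n * g⁻¹)) = 1 := by
      rw [map_mul, map_inv, he, inv_mul_cancel]
    rcases hker _ h2 with h3 | h3
    · have e : g * n * g⁻¹ = h' := by
        rw [← mul_one h', ← h3, mul_inv_cancel_left]
      rw [e]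
      exact hh'
    · have e : g * n * g⁻¹ = h' * z := by
        rw [← h3, mul_inv_cancel_left]
      by_cases hzH : z ∈ H
      · rw [e]
        exact H.mul_mem hh' hzH
      · exfalso
        have hodd : ¬ 2 ∣ Nat.card H := by
          intro h2dvd
          obtain ⟨x, hx⟩ := exists_prime_orderOf_dvd_card' (G := H) 2 h2dvd
          have hx2 : (x : K) * (x : K) = 1 := by
            have h4 := pow_orderOf_eq_one x
            rw [hx, pow_two] at h4
            exact congrArg Subtype.val h4
          rcases hz _ hx2 with h4 | h4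
          · have h5 : x = 1 := Subtype.ext h4
            rw [h5, orderOf_one] at hx
            omega
          · exact hzH (h4 ▸ x.2)
        obtain ⟨m, hmdef⟩ : ∃ m, m = orderOf n := ⟨_, rfl⟩
        have hm : ¬ 2 ∣ m := by
          intro hd
          apply hodd
          have h4 : orderOf (⟨n, hn'⟩ : H) = orderOf n := Subgroup.orderOf_mk n hn'
          rw [hmdef, ← h4] at hd
          exact hd.trans (orderOf_dvd_natCard _)
        have h5 : (g * n * g⁻¹) ^ m = 1 := by
          rw [conj_pow, hmdef, pow_orderOf_eq_one, mul_one, mul_inv_cancel]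
        have hcomm : Commute h' z := (hzc h').symm
        rw [e, hcomm.mul_pow] at h5
        have hzm : z ^ m = z := by
          obtain ⟨k, hk⟩ : Odd m := Nat.odd_iff.mpr (by omega)
          rw [hk, pow_succ, pow_mul, pow_two, hzz, one_pow, one_mul]
        rw [hzm] at h5
        have h6 : z = (h' ^ m)⁻¹ := eq_inv_of_mul_eq_one_right h5
        exact hzH (h6 ▸ H.inv_mem (H.pow_mem hh' m))
  have claim1 : ∀ g : K, g ∈ Subgroup.normalizer (H : Set K) →
      π g ∈ Subgroup.normalizer ((H.map π : Subgroup Q) : Set Q) := by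
    intro g hg
    apply Subgroup.mem_normalizer_fintype
    intro n hn
    obtain ⟨x, hx, rfl⟩ := Subgroup.mem_map.mp hn
    show π g * π x * (π g)⁻¹ ∈ H.map π
    rw [← map_inv, ← map_mul, ← map_mul]
    exact Subgroup.mem_map_of_mem π ((Subgroup.mem_normalizer_iff.mp hg x).mp hx)
  have hnot : ¬ (H.map π).Normal := by
    intro hn
    apply hH
    rw [← Subgroup.normalizer_eq_top_iff, eq_top_iff]
    intro g _
    apply claim2
    rw [Subgroup.normalizer_eq_top_iff.mpr hn]
    exact Subgroup.mem_top _
  have hc := h (H.map π) hnot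
  constructor
  · rw [Ne, Subgroup.normalizer_eq_top_iff]
    exact hH
  · intro L hL
    have hNL : Subgroup.normalizer ((H.map π : Subgroup Q) : Set Q) ≤ L.map π := by
      intro y hy
      obtain ⟨x, rfl⟩ := hπ y
      exact Subgroup.mem_map_of_mem π (hL.le (claim2 x hy))
    have hne : Subgroup.normalizer ((H.map π : Subgroup Q) : Set Q) ≠ L.map π := by
      intro heq
      have hLle : L ≤ Subgroup.normalizer (H : Set K) := by
        intro x hx
        apply claim2
        rw [heq]
        exact Subgroup.mem_map_of_mem π hx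
      exact (not_lt_of_ge hLle) hL
    have htop : L.map π = ⊤ := hc.2 _ (lt_of_le_of_ne hNL hne)
    rw [eq_top_iff]
    intro x _
    have h1 : π x ∈ L.map π := htop ▸ Subgroup.mem_top _
    obtain ⟨y, hy, hxy⟩ := Subgroup.mem_map.mp h1
    have h2 : y⁻¹ * x ∈ L := by
      apply hL.le
      apply claim2
      rw [map_mul, map_inv, hxy, inv_mul_cancel]
      exact Subgroup.one_mem _
    have e : x = y * (y⁻¹ * x) := by group
    rw [e]
    exact L.mul_mem hy h2

/-- from `PSL₂(F)` to `SL₂(F)` in odd characteristic -/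
theorem NormMax.sl2_of_psl2 {F : Type*} [Field F] [Fintype F] (h2 : (2 : F) ≠ 0)
    (h : NormMax (Matrix.ProjectiveSpecialLinearGroup (Fin 2) F)) :
    NormMax (Matrix.SpecialLinearGroup (Fin 2) F) := by
  classical
  apply NormMax.of_central_quotient
    (QuotientGroup.mk' (Subgroup.center (Matrix.SpecialLinearGroup (Fin 2) F)))
    (QuotientGroup.mk'_surjective _) negOne (sq_eq_one_cases h2) ?_ negOne_comm negOne_mul_self h
  intro x hx
  have hx' : x ∈ Subgroup.center (Matrix.SpecialLinearGroup (Fin 2) F) := by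
    rwa [QuotientGroup.mk'_apply, QuotientGroup.eq_one_iff] at hx
  exact mem_center_cases x hx'

end Cfsg.Agent.Lib.Helper41
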