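import Mathlib
import Cfsg.Agent.S0799
import Cfsg.Agent.Lib.Helper41.PSL2Max

set_option autoImplicit false

namespace Cfsg.Agent.Lib.Helper41

open Matrix

variable {F : Type*} [Field F]

/-- the possible proper overgroups of a subgroup of `PSL₂(F)`, by Dickson's theorem -/
theorem overgroup_cases [Fintype F] (p : ℕ) [Fact p.Prime] [CharP F p]
    (H M : Subgroup (Matrix.ProjectiveSpecialLinearGroup (Fin 2) F)) (hHM : H ≤ M) (hM : M ≠ ⊤) :
    (Group.IsSolvable M ∧ ∃ h ∈ H, Nat.card H ≤ 2 * orderOf h) ∨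
    (Group.IsSolvable M ∧ ((Nat.card H).Coprime p → ∀ x ∈ H, ∀ y ∈ H, x * y = y * x)) ∨
    Nonempty (M ≃* alternatingGroup (Fin 4)) ∨ Nonempty (M ≃* Equiv.Perm (Fin 4)) ∨
    Nonempty (M ≃* alternatingGroup (Fin 5)) ∨
    (∃ (K : Type) (_ : Field K) (_ : Fintype K) (m : ℕ), 2 ≤ m ∧
      Fintype.card K ^ m = Fintype.card F ∧
      Nat.card M ∣ Fintype.card K * (Fintype.card K ^ 2 - 1) ∧
      (Nonempty (M ≃* Matrix.ProjectiveSpecialLinearGroup (Fin 2) K) ∨
        Nonempty (M ≃* Matrix.ProjGenLinGroup (Fin 2) K))) := by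
  classical
  rcases Cfsg.Agent.S0799.result (q := Fintype.card F) rfl p M with ⟨k, hk, hcyc | hdih⟩ |
    ⟨P, K, hK, hf⟩ | hf | hf | hf | ⟨K, iK, iK', m, hm, hiso⟩
  · left
    haveI := hcyc.1
    refine ⟨?_, exists_orderOf_of_le_cyclic M H hHM⟩
    apply Group.isSolvable_of_comm
    intro a b
    obtain ⟨g, hg⟩ := IsCyclic.exists_generator (α := M)
    obtain ⟨i, rfl⟩ := Subgroup.mem_zpowers_iff.mp (hg a)
    obtain ⟨j, rfl⟩ := Subgroup.mem_zpowers_iff.mp (hg b)
    exact zpow_mul_comm g i j
  · left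
    obtain ⟨f⟩ := hdih
    haveI := isSolvable_dihedralGroup k
    exact ⟨Group.isSolvable_of_isSolvable_injective (f := f.toMonoidHom) f.injective,
      exists_orderOf_of_le_dihedral M H k f hHM⟩
  · right; left
    obtain ⟨f⟩ := hf
    haveI := isSolvable_normalizer_sylow p P
    haveI : Group.IsSolvable K :=
      Group.isSolvable_of_isSolvable_injective (f := Subgroup.inclusion hK)
        (Subgroup.inclusion_injective hK)
    refine ⟨Group.isSolvable_of_isSolvable_injective (f := f.toMonoidHom) f.injective, ?_⟩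
    intro hcop x hx y hy
    haveI : Finite H := inferInstance
    have h1 := comm_of_embeds_normalizer_sylow p P
      ((Subgroup.inclusion hK).comp (f.toMonoidHom.comp (Subgroup.inclusion hHM)))
      ((Subgroup.inclusion_injective hK).comp (f.injective.comp (Subgroup.inclusion_injective hHM)))
      hcop ⟨x, hx⟩ ⟨y, hy⟩
    exact congrArg Subtype.val h1
  · right; right; left
    exact hf
  · right; right; right; left
    exact hf
  · right; right; right; right; left
    exact hf
  · right; right; right; right; right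
    exact ⟨K, iK, iK', m, two_le_of_lie_type M hM K m hm hiso, hm, card_dvd_of_lie_type M K hiso,
      hiso⟩

/-- criterion for being a coatom -/
theorem isCoatom_of_overgroups {G : Type*} [Group G] (H : Subgroup G) (hH : H ≠ ⊤)
    (h : ∀ M : Subgroup G, H ≤ M → M ≠ ⊤ → H ≠ M → False) : IsCoatom H := by
  refine ⟨hH, ?_⟩
  intro M hHM
  by_contra hM
  exact h M hHM.le hM hHM.ne

end Cfsg.Agent.Lib.Helper41
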